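import Cfsg.Agent.R2.P3.Q

/-!
# No submodules of type `11` (R2/P3, helper17), `p = 3`

`no_eleven` : there are no submodules `V_{3^i + 3^j}`.
-/

set_option autoImplicit false
set_option linter.unusedSectionVars false

namespace Cfsg.Agent.R2.P3

open Matrix Cfsg.Agent.H943.SL2Rel Cfsg.Agent.H943.SL2Mod Cfsg.Agent.H943.RepAdd Cfsg.Agent.R2.H28.SL2
open Cfsg.Lie
open Cfsg.Agent.ChevalleyStructure.E6Min.Basic (Zgrp)
open Cfsg.Agent.ChevalleyStructure.E6Min.Inv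
open Cfsg.Agent.H952.F4 (sh cr tf)
open Cfsg.Agent.H952.F4.Jord
open Cfsg.Agent.R2.GEO (Pair crB crB_apply tfB tfB_apply)

universe u v w

section Quart

variable {k : Type*} [Field k] [IsAlgClosed k] {A : Type*} [CommRing A] [Algebra k A] {W : Type*} [AddCommGroup W]
  [Module k W]

/-- **polarization, first step** -/
theorem polar1 (h2 : (2 : k) ≠ 0) {S : Submodule k A} {B : A →ₗ[k] A →ₗ[k] W} (hs : ∀ x y, B x y = B y x)
    (h : ∀ f ∈ S, B (f * f) (f * f) = 0) {f g : A} (hf : f ∈ S) (hg : g ∈ S) : B (f * f) (f * g) = 0 := by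
  obtain ⟨c, hc⟩ := IsAlgClosed.exists_pow_nat_eq (-1 : k) (n := 2) (by norm_num)
  have key : ∀ l : k, B (f * f) (f * f) + (4 * l) • B (f * f) (f * g) + (l ^ 2) • ((2 : k) • B (f * f) (g * g) +
      (4 : k) • B (f * g) (f * g)) + (4 * l ^ 3) • B (g * g) (f * g) + (l ^ 4) • B (g * g) (g * g) = 0 := by
    intro l
    have h1 := h (f + l • g) (S.add_mem hf (S.smul_mem l hg))
    have e1 : (f + l • g) * (f + l • g) = f * f + (2 * l) • (f * g) + (l ^ 2) • (g * g) := by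
      simp only [Algebra.smul_def, map_mul, map_pow, map_ofNat]
      ring
    rw [e1] at h1
    simp only [map_add, map_smul, LinearMap.add_apply, LinearMap.smul_apply] at h1
    rw [hs (f * g) (f * f), hs (g * g) (f * f), hs (f * g) (g * g)] at h1
    rw [← h1]
    module
  rw [h f hf, h g hg] at key
  simp only [zero_add, smul_zero, add_zero] at key
  have k1 := key 1
  have k2 := key (-1)
  have k3 := key c
  have hc4 : c ^ 4 = 1 := by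
    rw [show 4 = 2 * 2 by norm_num, pow_mul, hc]
    norm_num
  have hc3 : c ^ 3 = -c := by
    rw [pow_succ, hc]
    ring
  rw [hc, hc3] at k3
  have hc0 : c ≠ 0 := by
    rintro rfl
    rw [zero_pow (by norm_num)] at hc
    exact one_ne_zero (α := k) (by linear_combination hc)
  -- c2 = 0
  have e1 : (2 : k) • ((2 : k) • B (f * f) (g * g) + (4 : k) • B (f * g) (f * g)) = 0 := by
    linear_combination (norm := module) k1 + k2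
  rw [smul_eq_zero] at e1
  have e2 := e1.resolve_left h2
  rw [e2] at k1 k3
  simp only [smul_zero, add_zero] at k1 k3
  have e3 : (8 * c) • B (f * f) (f * g) = 0 := by
    linear_combination (norm := module) c • k1 + k3
  rw [smul_eq_zero] at e3
  refine e3.resolve_left (mul_ne_zero ?_ hc0)
  rw [show (8 : k) = 2 * 2 * 2 by norm_num]
  exact mul_ne_zero (mul_ne_zero h2 h2) h2

omit [IsAlgClosed k] in
/-- **polarization, second step** -/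
theorem polar3 (h2 : (2 : k) ≠ 0) {S : Submodule k A} {B : A →ₗ[k] A →ₗ[k] W}
    (h : ∀ f ∈ S, ∀ g ∈ S, B (f * f) (f * g) = 0) {f g e : A} (hf : f ∈ S) (hg : g ∈ S) (he : e ∈ S) :
    B (f * f) (g * e) + (2 : k) • B (f * g) (f * e) = 0 := by
  have h1 := h (f + g) (S.add_mem hf hg) e he
  have h3 := h (f - g) (S.sub_mem hf hg) e he
  have e1 : (f + g) * (f + g) = f * f + (2 : k) • (f * g) + g * g := by
    simp only [Algebra.smul_def, map_ofNat]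
    ring
  have e2 : (f - g) * (f - g) = f * f - (2 : k) • (f * g) + g * g := by
    simp only [Algebra.smul_def, map_ofNat]
    ring
  rw [e1, add_mul] at h1
  rw [e2, sub_mul] at h3
  simp only [map_add, map_sub, map_smul, LinearMap.add_apply, LinearMap.smul_apply, LinearMap.sub_apply] at h1 h3
  rw [h f hf e he, h g hg e he] at h1 h3
  have e3 : (2 : k) • (B (f * f) (g * e) + (2 : k) • B (f * g) (f * e)) = 0 := by
    linear_combination (norm := module) h1 - h3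
  exact (smul_eq_zero.1 e3).resolve_left h2

end Quart

section Mono2

variable {k : Type u} [Field k] {F : Type w} [Field F] [Fintype F] [DecidableEq F] (ι : F →+* k)

theorem emul (i j : ℕ) {x y x' y' : ℕ} (hx : x ≤ 1) (hy : y ≤ 1) (hx' : x' ≤ 1) (hy' : y' ≤ 1) :
    bf ι 3 i j 1 1 x y * bf ι 3 i j 1 1 x' y' = bf ι 3 i j 2 2 (x + x') (y + y') := by
  unfold bf
  have e1 : 2 - (x + x') = (1 - x) + (1 - x') := by omega
  have e2 : 2 - (y + y') = (1 - y) + (1 - y') := by omega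
  rw [e1, e2]
  simp only [pow_add]
  ring

theorem bf_swap (i j : ℕ) (x y : ℕ) : bf ι 3 j i 2 2 y x = bf ι 3 i j 2 2 x y := by
  unfold bf
  ring

variable [CharP k 3] [CharP F 3]

theorem w_bf (i j : ℕ) {x y : ℕ} (hx : x ≤ 2) (hy : y ≤ 2) :
    fRep k F w (bf ι 3 i j 2 2 x y) = ((-1 : k) ^ (x + y)) • bf ι 3 i j 2 2 (2 - x) (2 - y) := by
  unfold bf
  rw [fRep_mul, fRep_mul, fRep_mul, fRep_pow, fRep_pow, fRep_pow, fRep_pow, fRep_w_xi, fRep_w_et, fRep_w_xi, fRep_w_et]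
  funext z
  simp only [Pi.mul_apply, Pi.pow_apply, Pi.smul_apply, Pi.neg_apply, smul_eq_mul]
  rw [neg_pow, neg_pow (et ι 3 j z), show 2 - (2 - x) = x by omega, show 2 - (2 - y) = y by omega, pow_add]
  ring

end Mono2

section Main

variable {k : Type u} [Field k] [DecidableEq k] [IsAlgClosed k] {F : Type w} [Field F] [Fintype F] [DecidableEq F]
  {ι : F →+* k} [CharP k 3] [CharP F 3] {a : ℕ}
variable {ψ : SpecialLinearGroup (Fin 2) F →* ↥(Zgrp k)} {ρ ρ' : Representation k ↥(Zgrp k) (I27 → k)}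

/-- no stable totally singular subspaces -/
def Nts (r : Representation k (SpecialLinearGroup (Fin 2) F) (I27 → k)) : Prop :=
  ∀ W : Submodule k (I27 → k), (∀ g, ∀ x ∈ W, r g x ∈ W) → (∀ x ∈ W, sh x = 0) → W = ⊥

theorem Nts.hm {r : Representation k (SpecialLinearGroup (Fin 2) F) (I27 → k)} (hn : Nts r) {b : ℕ}
    {Φ : (F × F → k) →ₗ[k] (I27 → k)} (hΦ : Hm ι r b Φ) (hi : ∀ g, ∀ f ∈ Vb ι b, fRep k F g f ∈ Vb ι b)
    (h : ∀ f ∈ Vb ι b, cr (Φ f) (Φ f) = 0) : ∀ f ∈ Vb ι b, Φ f = 0 := by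
  have h1 := hn ((Vb ι b).map Φ) (by
    rintro g _ ⟨f, hf, rfl⟩
    exact ⟨fRep k F g f, hi g f hf, hΦ g f hf⟩) (by
    rintro _ ⟨f, hf, rfl⟩
    have h1 := h f hf
    rw [cr_self, smul_eq_zero] at h1
    exact h1.resolve_left (two_ne (k := k)))
  intro f hf
  have h2 : Φ f ∈ (Vb ι b).map Φ := ⟨f, hf, rfl⟩
  rw [h1] at h2
  exact (Submodule.mem_bot k).1 h2

/-- the situation -/
structure Cf11 (ι : F →+* k) (a i j : ℕ) (ρ ρ' : Representation k ↥(Zgrp k) (I27 → k))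
    (ψ : SpecialLinearGroup (Fin 2) F →* ↥(Zgrp k)) (Φ Ψ : (F × F → k) →ₗ[k] (I27 → k)) : Prop where
  fra : Fra 3 a ψ ρ ρ'
  ha : 3 ≤ a
  hij : i ≠ j
  hi : i < a
  hj : j < a
  n1 : Nts (Rr ρ ψ)
  n2 : Nts (Rr ρ' ψ)
  h1 : Hm ι (Rr ρ ψ) (1 * 3 ^ i + 1 * 3 ^ j) Φ
  h2 : Hm ι (Rr ρ' ψ) (2 * 3 ^ i + 2 * 3 ^ j) Ψ
  sq : ∀ f ∈ Vb ι (1 * 3 ^ i + 1 * 3 ^ j), ∀ f' ∈ Vb ι (1 * 3 ^ i + 1 * 3 ^ j), cr (Φ f) (Φ f') = Ψ (f * f')

theorem Cf11.swap {i j : ℕ} {Φ Ψ : (F × F → k) →ₗ[k] (I27 → k)} (C : Cf11 ι a i j ρ ρ' ψ Φ Ψ) :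
    Cf11 ι a j i ρ ρ' ψ Φ Ψ where
  fra := C.fra
  ha := C.ha
  hij := C.hij.symm
  hi := C.hj
  hj := C.hi
  n1 := C.n1
  n2 := C.n2
  h1 := by rw [add_comm]; exact C.h1
  h2 := by rw [add_comm]; exact C.h2
  sq := by
    rw [add_comm (1 * 3 ^ j)]
    exact C.sq

section

variable {i j : ℕ} {Φ Ψ : (F × F → k) →ₗ[k] (I27 → k)} (C : Cf11 ι a i j ρ ρ' ψ Φ Ψ)

include C

theorem Cf11.q1 : 1 * 3 ^ i + 1 * 3 ^ j ≤ Fintype.card F - 1 := by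
  have := pair_lt_Q C.ha C.hij C.hi C.hj
  rw [C.fra.card]
  omega

theorem Cf11.q2 : 2 * 3 ^ i + 2 * 3 ^ j ≤ Fintype.card F - 1 := by
  have := pair_lt_Q C.ha C.hij C.hi C.hj
  rw [C.fra.card]
  omega

theorem Cf11.em {x y : ℕ} (hx : x ≤ 1) (hy : y ≤ 1) : bf ι 3 i j 1 1 x y ∈ Vb ι (1 * 3 ^ i + 1 * 3 ^ j) :=
  bf_mem ι 3 C.hij (by norm_num) (by norm_num) C.q1 hx hy

theorem Cf11.mm {x y : ℕ} (hx : x ≤ 2) (hy : y ≤ 2) : bf ι 3 i j 2 2 x y ∈ Vb ι (2 * 3 ^ i + 2 * 3 ^ j) :=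
  bf_mem ι 3 C.hij (by norm_num) (by norm_num) C.q2 hx hy

theorem Cf11.p0 : ∀ f ∈ Vb ι (1 * 3 ^ i + 1 * 3 ^ j), cr (Ψ (f * f)) (Ψ (f * f)) = 0 := by
  intro f hf
  have h1 := N_eleven C.fra C.ha C.hij C.hi C.hj C.h1 f hf
  rw [← C.sq f hf f hf, cr_self (Φ f), cr_smul_left, cr_smul_right, cr_self, sh_sh, h1, zero_smul, smul_zero, smul_zero,
    smul_zero]

/-- P1 -/
theorem Cf11.p1 {f g : F × F → k} (hf : f ∈ Vb ι (1 * 3 ^ i + 1 * 3 ^ j)) (hg : g ∈ Vb ι (1 * 3 ^ i + 1 * 3 ^ j)) :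
    cr (Ψ (f * f)) (Ψ (f * g)) = 0 :=
  polar1 (two_ne (k := k)) (S := Vb ι (1 * 3 ^ i + 1 * 3 ^ j)) (B := (crB k).compl₁₂ Ψ Ψ) (fun _ _ => cr_comm _ _) C.p0
    hf hg

/-- P3 -/
theorem Cf11.p3 {f g e : F × F → k} (hf : f ∈ Vb ι (1 * 3 ^ i + 1 * 3 ^ j)) (hg : g ∈ Vb ι (1 * 3 ^ i + 1 * 3 ^ j))
    (he : e ∈ Vb ι (1 * 3 ^ i + 1 * 3 ^ j)) :
    cr (Ψ (f * f)) (Ψ (g * e)) + (2 : k) • cr (Ψ (f * g)) (Ψ (f * e)) = 0 :=
  polar3 (two_ne (k := k)) (S := Vb ι (1 * 3 ^ i + 1 * 3 ^ j)) (B := (crB k).compl₁₂ Ψ Ψ) (fun _ hf _ hg => C.p1 hf hg)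
    hf hg he

/-- P1 on monomials -/
theorem Cf11.m1 {x y x' y' : ℕ} (hx : x ≤ 1) (hy : y ≤ 1) (hx' : x' ≤ 1) (hy' : y' ≤ 1) :
    cr (Ψ (bf ι 3 i j 2 2 (x + x) (y + y))) (Ψ (bf ι 3 i j 2 2 (x + x') (y + y'))) = 0 := by
  rw [← emul ι i j hx hy hx hy, ← emul ι i j hx hy hx' hy']
  exact C.p1 (C.em hx hy) (C.em hx' hy')

/-- P3 on monomials -/
theorem Cf11.m3 {x y x' y' x'' y'' : ℕ} (hx : x ≤ 1) (hy : y ≤ 1) (hx' : x' ≤ 1) (hy' : y' ≤ 1) (hx'' : x'' ≤ 1)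
    (hy'' : y'' ≤ 1) :
    cr (Ψ (bf ι 3 i j 2 2 (x + x) (y + y))) (Ψ (bf ι 3 i j 2 2 (x' + x'') (y' + y''))) +
    (2 : k) • cr (Ψ (bf ι 3 i j 2 2 (x + x') (y + y'))) (Ψ (bf ι 3 i j 2 2 (x + x'') (y + y''))) = 0 := by
  rw [← emul ι i j hx hy hx hy, ← emul ι i j hx hy hx' hy', ← emul ι i j hx hy hx'' hy'', ← emul ι i j hx' hy' hx'' hy'']
  exact C.p3 (C.em hx hy) (C.em hx' hy') (C.em hx'' hy'')

/-- the cubic form vanishes on `Ψ(V_22)` -/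
theorem Cf11.nz : ∀ f ∈ Vb ι (2 * 3 ^ i + 2 * 3 ^ j), cubicT (Ψ f) = 0 := by
  have hF := C.fra.card
  have hQ := pair_lt_Q C.ha C.hij C.hi C.hj
  have hi' := inv_Vb' ι 3 C.q2
  have hT := gen_tri (Trr_inv C.fra.pair.swap C.h2 C.h2 C.h2) hi' hi' (top_mem ι 3 C.q2) (top_mem ι 3 C.q2) (by
    intro f hf
    have e1 : mon ι (2 * 3 ^ i + 2 * 3 ^ j) (2 * 3 ^ i + 2 * 3 ^ j) = bf ι 3 i j 2 2 2 2 :=
      (bf_eq_mon ι 3 i j le_rfl le_rfl).symm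
    rw [e1, w_bf ι i j le_rfl le_rfl, show (-1 : k) ^ (2 + 2) = 1 by norm_num, one_smul]
    refine Vb_le_bf ι 3 C.hij (by norm_num : 2 < 3) (by norm_num : 2 < 3)
      (P := fun f => Trr Ψ Ψ Ψ (bf ι 3 i j 2 2 2 2) (bf ι 3 i j 2 2 (2 - 2) (2 - 2)) f = 0) ?_ ?_ ?_ ?_ hf
    · rw [map_zero]
    · intro f f' h1 h2
      rw [map_add, h1, h2, add_zero]
    · intro c f h1
      rw [map_smul, h1, smul_zero]
    · intro x hx y hy
      by_cases hxy : x = 1 ∧ y = 1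
      · obtain ⟨rfl, rfl⟩ := hxy
        rw [Trr_apply, tri_s12, tri_s23, C.m1 (x := 0) (y := 0) (x' := 1) (y' := 1) (by norm_num) (by norm_num) le_rfl le_rfl]
        exact Cfsg.Agent.R2.GEO.tf_zero_left _
      · refine Trr_wt C.fra.pair.swap C.h2 C.h2 C.h2 (C.mm le_rfl le_rfl) (C.mm (by norm_num) (by norm_num)) (C.mm hx hy)
          (bf_wt ι 3 i j 2 2 2 2) (bf_wt ι 3 i j 2 2 _ _) (bf_wt ι 3 i j 2 2 x y) ?_
        intro h3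
        apply hxy
        have h4 : 2 * 3 ^ i + 2 * 3 ^ j + (x * 3 ^ i + y * 3 ^ j) ≡ 2 * 3 ^ i + 2 * 3 ^ j + ((2 - x) * 3 ^ i + (2 - y) * 3 ^ j)
            [MOD Fintype.card F - 1] := by
          show _ % _ = _ % _
          simpa using h3
        have h5 := Nat.ModEq.add_left_cancel' _ h4
        have h6 : ∀ {r s : ℕ}, r ≤ 2 → s ≤ 2 → r * 3 ^ i + s * 3 ^ j < Fintype.card F - 1 := by
          intro r s hr hs
          have h2 : r * 3 ^ i ≤ 2 * 3 ^ i := Nat.mul_le_mul_right _ (by omega)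
          have h3 : s * 3 ^ j ≤ 2 * 3 ^ j := Nat.mul_le_mul_right _ (by omega)
          rw [hF]
          omega
        have h7 := Nat.ModEq.eq_of_lt_of_lt h5 (h6 hx hy) (h6 (by omega) (by omega))
        have := rs_inj C.hij (by omega) (by omega) (by omega) (by omega) h7
        omega)
  refine N_zero C.fra.pair.swap C.h2 hi' (top_mem ι 3 C.q2) hT ?_
  have e1 : mon ι (2 * 3 ^ i + 2 * 3 ^ j) (2 * 3 ^ i + 2 * 3 ^ j) = bf ι 3 i j 2 2 2 2 :=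
    (bf_eq_mon ι 3 i j le_rfl le_rfl).symm
  rw [e1]
  have w1 := C.h2.wt (C.mm le_rfl le_rfl) (bf_wt ι 3 i j 2 2 2 2)
  refine N_wt (ι := ι) (ψ := ψ) (m := 2 * 3 ^ i + 2 * 3 ^ j) C.fra.pair.swap (fun c => ?_) ?_
  · rw [w1 c]
    simp
  · rw [Nat.mod_eq_of_lt (by rw [hF]; omega)]
    have := Nat.pow_pos (n := i) (show 0 < 3 by norm_num)
    omega

/-- the squares of `Ψ(V_22)` -/
theorem Cf11.shsh {f : F × F → k} (hf : f ∈ Vb ι (2 * 3 ^ i + 2 * 3 ^ j)) :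
    cr (cr (Ψ f) (Ψ f)) (cr (Ψ f) (Ψ f)) = 0 := by
  rw [cr_self (Ψ f), cr_smul_left, cr_smul_right, cr_self, sh_sh, C.nz f hf, zero_smul, smul_zero, smul_zero, smul_zero]

/-- the action of `u t` -/
theorem Cf11.uw (t : F) :
    Rr ρ ψ (u t) (cr (Ψ (bf ι 3 i j 2 2 0 0)) (Ψ (bf ι 3 i j 2 2 0 2))) =
    cr (Ψ (bf ι 3 i j 2 2 0 0)) (Ψ (bf ι 3 i j 2 2 0 2)) +
    (ι t ^ 3 ^ i) • ((2 : k) • cr (Ψ (bf ι 3 i j 2 2 1 0)) (Ψ (bf ι 3 i j 2 2 0 2)) +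
      (2 : k) • cr (Ψ (bf ι 3 i j 2 2 0 0)) (Ψ (bf ι 3 i j 2 2 1 2))) +
    ((ι t ^ 3 ^ i) ^ 2) • (cr (Ψ (bf ι 3 i j 2 2 2 0)) (Ψ (bf ι 3 i j 2 2 0 2)) +
      (4 : k) • cr (Ψ (bf ι 3 i j 2 2 1 0)) (Ψ (bf ι 3 i j 2 2 1 2)) +
      cr (Ψ (bf ι 3 i j 2 2 0 0)) (Ψ (bf ι 3 i j 2 2 2 2))) +
    ((ι t ^ 3 ^ i) ^ 3) • ((2 : k) • cr (Ψ (bf ι 3 i j 2 2 2 0)) (Ψ (bf ι 3 i j 2 2 1 2)) +
      (2 : k) • cr (Ψ (bf ι 3 i j 2 2 1 0)) (Ψ (bf ι 3 i j 2 2 2 2))) +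
    ((ι t ^ 3 ^ i) ^ 4) • cr (Ψ (bf ι 3 i j 2 2 2 0)) (Ψ (bf ι 3 i j 2 2 2 2)) := by
  obtain ⟨c, hc⟩ : ∃ c, c = ι t ^ 3 ^ i := ⟨_, rfl⟩
  obtain ⟨d, hd⟩ : ∃ d, d = ι t ^ 3 ^ j := ⟨_, rfl⟩
  have m1 := C.em (x := 0) (y := 0) (by norm_num) (by norm_num)
  have m2 := C.em (x := 1) (y := 0) (by norm_num) (by norm_num)
  have m3 := C.em (x := 0) (y := 1) (by norm_num) (by norm_num)
  have m4 := C.em (x := 1) (y := 1) (by norm_num) (by norm_num)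
  -- `f1 = (E + c X) E'`, `f2 = (E + c X) X'`
  have n1 : bf ι 3 i j 1 1 0 0 + c • bf ι 3 i j 1 1 1 0 ∈ Vb ι (1 * 3 ^ i + 1 * 3 ^ j) :=
    add_mem m1 (Submodule.smul_mem _ _ m2)
  have n2 : bf ι 3 i j 1 1 0 1 + c • bf ι 3 i j 1 1 1 1 ∈ Vb ι (1 * 3 ^ i + 1 * 3 ^ j) :=
    add_mem m3 (Submodule.smul_mem _ _ m4)
  have e1 : fRep k F (u t) (bf ι 3 i j 2 2 0 0) =
      (bf ι 3 i j 1 1 0 0 + c • bf ι 3 i j 1 1 1 0) * (bf ι 3 i j 1 1 0 0 + c • bf ι 3 i j 1 1 1 0) +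
      (2 * d) • ((bf ι 3 i j 1 1 0 1 + c • bf ι 3 i j 1 1 1 1) * (bf ι 3 i j 1 1 0 0 + c • bf ι 3 i j 1 1 1 0)) +
      (d ^ 2) • ((bf ι 3 i j 1 1 0 1 + c • bf ι 3 i j 1 1 1 1) * (bf ι 3 i j 1 1 0 1 + c • bf ι 3 i j 1 1 1 1)) := by
    unfold bf
    simp only [fRep_mul, fRep_pow, fRep_u_xi, fRep_u_et, ← hc, ← hd]
    funext z
    simp only [Pi.add_apply, Pi.mul_apply, Pi.smul_apply, Pi.pow_apply, smul_eq_mul]
    ring
  have e2 : fRep k F (u t) (bf ι 3 i j 2 2 0 2) =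
      (bf ι 3 i j 1 1 0 1 + c • bf ι 3 i j 1 1 1 1) * (bf ι 3 i j 1 1 0 1 + c • bf ι 3 i j 1 1 1 1) := by
    unfold bf
    simp only [fRep_mul, fRep_pow, fRep_u_xi, fRep_u_et, ← hc, ← hd]
    funext z
    simp only [Pi.add_apply, Pi.mul_apply, Pi.smul_apply, Pi.pow_apply, smul_eq_mul]
    ring
  have e3 : (bf ι 3 i j 1 1 0 0 + c • bf ι 3 i j 1 1 1 0) * (bf ι 3 i j 1 1 0 0 + c • bf ι 3 i j 1 1 1 0) =
      bf ι 3 i j 2 2 0 0 + (2 * c) • bf ι 3 i j 2 2 1 0 + (c ^ 2) • bf ι 3 i j 2 2 2 0 := by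
    unfold bf
    funext z
    simp only [Pi.add_apply, Pi.mul_apply, Pi.smul_apply, Pi.pow_apply, smul_eq_mul]
    ring
  have e4 : (bf ι 3 i j 1 1 0 1 + c • bf ι 3 i j 1 1 1 1) * (bf ι 3 i j 1 1 0 1 + c • bf ι 3 i j 1 1 1 1) =
      bf ι 3 i j 2 2 0 2 + (2 * c) • bf ι 3 i j 2 2 1 2 + (c ^ 2) • bf ι 3 i j 2 2 2 2 := by
    unfold bf
    funext z
    simp only [Pi.add_apply, Pi.mul_apply, Pi.smul_apply, Pi.pow_apply, smul_eq_mul]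
    ring
  have h5 := C.p1 n2 n1
  have h6 := C.p1 n2 n2
  rw [cr_eqv C.fra.pair.swap C.h2 C.h2 _ (C.mm (by norm_num) (by norm_num)) (C.mm (by norm_num) (by norm_num)), e1, e2]
  simp only [map_add Ψ, map_smul Ψ, cr_add_left, cr_smul_left]
  rw [cr_comm (Ψ ((bf ι 3 i j 1 1 0 1 + c • bf ι 3 i j 1 1 1 1) * (bf ι 3 i j 1 1 0 0 + c • bf ι 3 i j 1 1 1 0))), h5, h6,
    smul_zero, smul_zero, add_zero, add_zero, e3, e4, ← hc]
  simp only [map_add Ψ, map_smul Ψ, cr_add_left, cr_smul_left, cr_add_right, cr_smul_right]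
  module

end

end Main

end Cfsg.Agent.R2.P3
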