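import Cfsg.Agent.R2.P3.Mix

/-!
# Matrices and submodules of type `22` (R2/P3, helper17), `p = 3`

* `Th i j : Matrix → V_{2 3^i + 2 3^j}`, `Th_act`, `Mg_J`;
* `dist3` : the trilinear form on three submodules which form a triangle is a multiple of `tr (A J B J C J)`.
-/

set_option autoImplicit false
set_option linter.unusedSectionVars false

namespace Cfsg.Agent.R2.P3

open Matrix Cfsg.Agent.H943.SL2Rel Cfsg.Agent.H943.SL2Mod Cfsg.Agent.H943.RepAdd Cfsg.Agent.R2.H28.SL2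
open Cfsg.Lie
open Cfsg.Agent.ChevalleyStructure.E6Min.Basic (Zgrp)
open Cfsg.Agent.ChevalleyStructure.E6Min.Inv
open Cfsg.Agent.H952.F4 (sh cr tf)
open Cfsg.Agent.H952.F4.Jord
open Cfsg.Agent.R2.GEO (Pair crB crB_apply tfB tfB_apply)

universe u v w

section Mat

variable {k : Type u} [Field k] [DecidableEq k] [IsAlgClosed k] {F : Type w} [Field F] [Fintype F] [DecidableEq F]
  (ι : F →+* k) [CharP k 3] [CharP F 3]

/-- the quadratic monomials -/
def vq (i : ℕ) (z : F × F) : Fin 3 → k := ![et ι 3 i z ^ 2, xi ι 3 i z * et ι 3 i z, xi ι 3 i z ^ 2]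

theorem vq_eq (i : ℕ) (z : F × F) (x : Fin 3) : vq ι i z x = xi ι 3 i z ^ (x : ℕ) * et ι 3 i z ^ (2 - (x : ℕ)) := by
  fin_cases x
  · show et ι 3 i z ^ 2 = xi ι 3 i z ^ 0 * et ι 3 i z ^ 2
    rw [pow_zero, one_mul]
  · show xi ι 3 i z * et ι 3 i z = xi ι 3 i z ^ 1 * et ι 3 i z ^ 1
    rw [pow_one, pow_one]
  · show xi ι 3 i z ^ 2 = xi ι 3 i z ^ 2 * et ι 3 i z ^ 0
    rw [pow_zero, mul_one]

/-- the function given by a matrix -/
def Th (i j : ℕ) : Matrix (Fin 3) (Fin 3) k →ₗ[k] (F × F → k) where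
  toFun A := fun z => vq ι i z ⬝ᵥ (A *ᵥ vq ι j z)
  map_add' A B := by
    funext z
    rw [Matrix.add_mulVec, dotProduct_add]
    rfl
  map_smul' c A := by
    funext z
    rw [Matrix.smul_mulVec, dotProduct_smul]
    rfl

theorem Th_apply (i j : ℕ) (A : Matrix (Fin 3) (Fin 3) k) (z : F × F) :
    Th ι i j A z = vq ι i z ⬝ᵥ (A *ᵥ vq ι j z) := rfl

theorem Th_single (i j : ℕ) (x y : Fin 3) : Th ι i j (Matrix.single x y 1) = bf ι 3 i j 2 2 (x : ℕ) (y : ℕ) := by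
  funext z
  rw [Th_apply]
  show _ = (xi ι 3 i z ^ (x : ℕ) * et ι 3 i z ^ (2 - (x : ℕ))) * (xi ι 3 j z ^ (y : ℕ) * et ι 3 j z ^ (2 - (y : ℕ)))
  rw [← vq_eq, ← vq_eq, Matrix.single_mulVec, one_mul, dotProduct_comm]
  show Pi.single x (vq ι j z y) ⬝ᵥ vq ι i z = _
  rw [single_dotProduct, mul_comm]

/-- the matrix of an element on quadratic monomials -/
def Mg (i : ℕ) (g : SpecialLinearGroup (Fin 2) F) : Matrix (Fin 3) (Fin 3) k :=
  let α := ι (g.1 0 0) ^ 3 ^ i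
  let β := ι (g.1 0 1) ^ 3 ^ i
  let γ := ι (g.1 1 0) ^ 3 ^ i
  let δ := ι (g.1 1 1) ^ 3 ^ i
  !![δ ^ 2, 2 * β * δ, β ^ 2; γ * δ, α * δ + β * γ, α * β; γ ^ 2, 2 * α * γ, α ^ 2]

theorem vq_act (i : ℕ) (g : SpecialLinearGroup (Fin 2) F) (z : F × F) :
    vq ι i (z.1 * g.1 0 0 + z.2 * g.1 1 0, z.1 * g.1 0 1 + z.2 * g.1 1 1) = Mg ι i g *ᵥ vq ι i z := by
  have e1 : xi ι 3 i (z.1 * g.1 0 0 + z.2 * g.1 1 0, z.1 * g.1 0 1 + z.2 * g.1 1 1) =
      xi ι 3 i z * ι (g.1 0 0) ^ 3 ^ i + et ι 3 i z * ι (g.1 1 0) ^ 3 ^ i := by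
    show ι (z.1 * g.1 0 0 + z.2 * g.1 1 0) ^ 3 ^ i = ι z.1 ^ 3 ^ i * _ + ι z.2 ^ 3 ^ i * _
    rw [map_add, map_mul, map_mul, add_pow_char_pow, mul_pow, mul_pow]
  have e2 : et ι 3 i (z.1 * g.1 0 0 + z.2 * g.1 1 0, z.1 * g.1 0 1 + z.2 * g.1 1 1) =
      xi ι 3 i z * ι (g.1 0 1) ^ 3 ^ i + et ι 3 i z * ι (g.1 1 1) ^ 3 ^ i := by
    show ι (z.1 * g.1 0 1 + z.2 * g.1 1 1) ^ 3 ^ i = ι z.1 ^ 3 ^ i * _ + ι z.2 ^ 3 ^ i * _
    rw [map_add, map_mul, map_mul, add_pow_char_pow, mul_pow, mul_pow]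
  unfold vq Mg
  rw [e1, e2]
  funext x
  fin_cases x
  · simp [Matrix.mulVec, dotProduct, Fin.sum_univ_three]
    ring
  · simp [Matrix.mulVec, dotProduct, Fin.sum_univ_three]
    ring
  · simp [Matrix.mulVec, dotProduct, Fin.sum_univ_three]
    ring

theorem Th_act (i j : ℕ) (g : SpecialLinearGroup (Fin 2) F) (A : Matrix (Fin 3) (Fin 3) k) :
    fRep k F g (Th ι i j A) = Th ι i j ((Mg ι i g)ᵀ * A * Mg ι j g) := by
  funext z
  show vq ι i (z.1 * g.1 0 0 + z.2 * g.1 1 0, z.1 * g.1 0 1 + z.2 * g.1 1 1) ⬝ᵥ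
    (A *ᵥ vq ι j (z.1 * g.1 0 0 + z.2 * g.1 1 0, z.1 * g.1 0 1 + z.2 * g.1 1 1)) =
    vq ι i z ⬝ᵥ (((Mg ι i g)ᵀ * A * Mg ι j g) *ᵥ vq ι j z)
  rw [vq_act, vq_act, ← Matrix.mulVec_mulVec, ← Matrix.mulVec_mulVec, Matrix.dotProduct_mulVec (vq ι i z) (Mg ι i g)ᵀ,
    Matrix.vecMul_transpose]

/-- the invariant form -/
def JJ (k : Type u) [Field k] : Matrix (Fin 3) (Fin 3) k := !![0, 0, 1; 0, 1, 0; 1, 0, 0]

theorem Mg_J (i : ℕ) (g : SpecialLinearGroup (Fin 2) F) : Mg ι i g * JJ k * (Mg ι i g)ᵀ = JJ k := by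
  have h3 := three_zero (k := k)
  have hd : ι (g.1 0 0) ^ 3 ^ i * ι (g.1 1 1) ^ 3 ^ i - ι (g.1 0 1) ^ 3 ^ i * ι (g.1 1 0) ^ 3 ^ i = 1 := by
    have h1 : g.1 0 0 * g.1 1 1 - g.1 0 1 * g.1 1 0 = 1 := by
      rw [← Matrix.det_fin_two]
      exact g.2
    have h2 : (ι (g.1 0 0) * ι (g.1 1 1) - ι (g.1 0 1) * ι (g.1 1 0)) ^ 3 ^ i = 1 := by
      rw [← map_mul, ← map_mul, ← map_sub, h1, map_one, one_pow]
    rw [sub_pow_char_pow, mul_pow, mul_pow] at h2
    exact h2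
  unfold Mg JJ
  generalize ι (g.1 0 0) ^ 3 ^ i = α at hd ⊢
  generalize ι (g.1 0 1) ^ 3 ^ i = β at hd ⊢
  generalize ι (g.1 1 0) ^ 3 ^ i = γ at hd ⊢
  generalize ι (g.1 1 1) ^ 3 ^ i = δ at hd ⊢
  ext x y
  fin_cases x <;> fin_cases y <;> simp [Matrix.mul_apply, Fin.sum_univ_three, Matrix.transpose_apply]
  · linear_combination (2 * β ^ 2 * δ ^ 2) * h3
  · linear_combination (α * β * δ ^ 2 + β ^ 2 * γ * δ) * h3
  · linear_combination (2 * α * β * γ * δ) * h3 + (α * δ - β * γ + 1) * hd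
  · linear_combination (α * β * δ ^ 2 + β ^ 2 * γ * δ) * h3
  · linear_combination (2 * α * β * γ * δ) * h3 + (α * δ - β * γ + 1) * hd
  · linear_combination (α ^ 2 * γ * δ + α * β * γ ^ 2) * h3
  · linear_combination (2 * α * β * γ * δ) * h3 + (α * δ - β * γ + 1) * hd
  · linear_combination (α ^ 2 * γ * δ + α * β * γ ^ 2) * h3
  · linear_combination (2 * α ^ 2 * γ ^ 2) * h3

theorem Th_inj {a i j : ℕ} (P : Pr a i j) (hF : Fintype.card F = 3 ^ a) {A : Matrix (Fin 3) (Fin 3) k}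
    (h : Th ι i j A = 0) : A = 0 := by
  have h1 := coeff2 ι hF P.ha P.ne P.hi P.hj (C := fun r s => A (Fin.ofNat 3 r) (Fin.ofNat 3 s)) (fun t => by
    have h2 := congrFun h (t, 1)
    rw [Th_apply] at h2
    rw [Finset.sum_range]
    refine Eq.trans (Finset.sum_congr rfl fun r _ => Finset.sum_range _) ?_
    refine Eq.trans ?_ h2
    rw [dotProduct]
    refine Finset.sum_congr rfl fun r _ => ?_
    rw [Matrix.mulVec, dotProduct, Finset.mul_sum]
    refine Finset.sum_congr rfl fun s _ => ?_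
    rw [vq_eq, vq_eq]
    have e1 : ∀ i, xi ι 3 i (t, 1) = ι t ^ 3 ^ i := fun i => rfl
    have e2 : ∀ i, et ι 3 i (t, (1 : F)) = 1 := fun i => by
      show ι 1 ^ 3 ^ i = 1
      rw [map_one, one_pow]
    have e3 : ∀ x : Fin 3, Fin.ofNat 3 (x : ℕ) = x := by decide
    rw [e1, e1, e2, e2, one_pow, one_pow, mul_one, mul_one, e3, e3, smul_eq_mul]
    ring)
  ext x y
  have h2 := h1 x x.2 y y.2
  have e3 : ∀ x : Fin 3, Fin.ofNat 3 (x : ℕ) = x := by decide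
  simp only [e3] at h2
  exact h2

theorem exists_kap {a i j : ℕ} (P : Pr a i j) (hF : Fintype.card F = 3 ^ a) :
    ∃ κ : (F × F → k) →ₗ[k] Matrix (Fin 3) (Fin 3) k, ∀ A, κ (Th ι i j A) = A := by
  obtain ⟨κ, hκ⟩ := LinearMap.exists_leftInverse_of_injective (Th (k := k) ι i j) (by
    rw [LinearMap.ker_eq_bot']
    exact fun A hA => Th_inj ι P hF hA)
  exact ⟨κ, fun A => LinearMap.congr_fun hκ A⟩

theorem exists_Th {i j : ℕ} (hij : i ≠ j) {f : F × F → k} (hf : f ∈ Vb ι (2 * 3 ^ i + 2 * 3 ^ j)) :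
    ∃ A, Th ι i j A = f := by
  refine Vb_le_bf ι 3 hij (by norm_num : 2 < 3) (by norm_num : 2 < 3) (P := fun f => ∃ A, Th ι i j A = f) ?_ ?_ ?_ ?_ hf
  · exact ⟨0, map_zero _⟩
  · rintro _ _ ⟨A, rfl⟩ ⟨B, rfl⟩
    exact ⟨A + B, map_add _ _ _⟩
  · rintro c _ ⟨A, rfl⟩
    exact ⟨c • A, map_smul _ _ _⟩
  · intro x hx y hy
    exact ⟨Matrix.single ⟨x, Nat.lt_succ_of_le hx⟩ ⟨y, Nat.lt_succ_of_le hy⟩ 1, Th_single ι i j _ _⟩

theorem Th_mem {a i j : ℕ} (P : Pr a i j) (hF : Fintype.card F = 3 ^ a) (A : Matrix (Fin 3) (Fin 3) k) :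
    Th ι i j A ∈ Vb ι (2 * 3 ^ i + 2 * 3 ^ j) := by
  rw [Matrix.matrix_eq_sum_single A, map_sum]
  refine sum_mem fun x _ => ?_
  rw [map_sum]
  refine sum_mem fun y _ => ?_
  have e : Matrix.single x y (A x y) = A x y • Matrix.single x y 1 := by
    rw [Matrix.smul_single, smul_eq_mul, mul_one]
  rw [e, map_smul, Th_single]
  exact Submodule.smul_mem _ _ (P.mm hF (Nat.le_of_lt_succ x.2) (Nat.le_of_lt_succ y.2))

end Mat

section Tri

variable (k : Type u) [Field k]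

/-- the trilinear form on matrices -/
noncomputable def Sf : Matrix (Fin 3) (Fin 3) k →ₗ[k] Matrix (Fin 3) (Fin 3) k →ₗ[k] Matrix (Fin 3) (Fin 3) k →ₗ[k] k :=
  LinearMap.mk₂ k (fun A B => (Matrix.traceLinearMap (Fin 3) k k).comp
      ((LinearMap.mulRight k (JJ k)).comp (LinearMap.mulLeft k (A * JJ k * B * JJ k))))
    (fun A A' B => by
      ext : 1
      simp only [LinearMap.add_apply, LinearMap.comp_apply, LinearMap.mulLeft_apply, LinearMap.mulRight_apply, add_mul,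
        map_add])
    (fun c A B => by
      ext : 1
      simp only [LinearMap.smul_apply, LinearMap.comp_apply, LinearMap.mulLeft_apply, LinearMap.mulRight_apply,
        smul_mul_assoc, map_smul])
    (fun A B B' => by
      ext : 1
      simp only [LinearMap.add_apply, LinearMap.comp_apply, LinearMap.mulLeft_apply, LinearMap.mulRight_apply, add_mul,
        mul_add, map_add])
    (fun c A B => by
      ext : 1
      simp only [LinearMap.smul_apply, LinearMap.comp_apply, LinearMap.mulLeft_apply, LinearMap.mulRight_apply,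
        smul_mul_assoc, mul_smul_comm, map_smul])

variable {k}

theorem Sf_apply (A B C : Matrix (Fin 3) (Fin 3) k) : Sf k A B C = Matrix.trace (A * JJ k * B * JJ k * C * JJ k) := rfl

/-- invariance -/
theorem Sf_inv {L M N A B C : Matrix (Fin 3) (Fin 3) k} (hL : L * JJ k * Lᵀ = JJ k) (hM : M * JJ k * Mᵀ = JJ k)
    (hN : N * JJ k * Nᵀ = JJ k) : Sf k (Lᵀ * A * M) (Mᵀ * B * N) (Nᵀ * C * L) = Sf k A B C := by
  rw [Sf_apply, Sf_apply]
  have e : Lᵀ * A * M * JJ k * (Mᵀ * B * N) * JJ k * (Nᵀ * C * L) * JJ k =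
      Lᵀ * (A * (M * JJ k * Mᵀ) * B * (N * JJ k * Nᵀ) * C * L * JJ k) := by
    simp only [mul_assoc]
  rw [e, hM, hN, Matrix.trace_mul_comm]
  have e2 : A * JJ k * B * JJ k * C * L * JJ k * Lᵀ = A * JJ k * B * JJ k * C * (L * JJ k * Lᵀ) := by
    simp only [mul_assoc]
  rw [e2, hL]

theorem Sf_single (x y x' y' x'' y'' : Fin 3) : Sf k (Matrix.single x y 1) (Matrix.single x' y' 1)
    (Matrix.single x'' y'' 1) = JJ k y x' * JJ k y' x'' * JJ k y'' x := by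
  rw [Sf_apply]
  have e : ∀ (x y x' y' : Fin 3) (M : Matrix (Fin 3) (Fin 3) k), Matrix.single x y 1 * M * Matrix.single x' y' 1 =
      M y x' • Matrix.single x y' (1 : k) := by
    intro x y x' y' M
    ext r s
    rw [Matrix.mul_apply, Matrix.smul_apply, smul_eq_mul, Finset.sum_eq_single x']
    · by_cases h1 : r = x
      · subst h1
        rw [Matrix.single_mul_apply_same, one_mul]
        by_cases h2 : s = y'
        · subst h2
          rw [Matrix.single_apply_same, Matrix.single_apply_same]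
        · rw [Matrix.single_apply_of_col_ne _ _ (Ne.symm h2), Matrix.single_apply_of_col_ne _ _ (Ne.symm h2)]
      · rw [Matrix.single_mul_apply_of_ne _ _ _ _ _ h1, Matrix.single_apply_of_row_ne (Ne.symm h1), zero_mul, mul_zero]
    · intro t _ ht
      rw [Matrix.single_apply_of_row_ne (Ne.symm ht), mul_zero]
    · intro h
      exact absurd (Finset.mem_univ _) h
  rw [e, smul_mul_assoc, smul_mul_assoc, e, smul_mul_assoc, smul_mul_assoc, Matrix.trace_smul, Matrix.trace_smul,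
    Matrix.trace_single_mul]
  simp only [smul_eq_mul, one_mul, mul_one]
  ring

end Tri

end Cfsg.Agent.R2.P3
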