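import Cfsg.Agent.R2.P3.Mix
import Cfsg.Agent.R2.H28.SL2.TK

/-!
# The patterns, `p = 3` (R2/P3, helper17)

`S22.of_pat` : for `q = 3 ^ a`, `a ≥ 3`, all irreducible submodules have type `22`.
-/

set_option autoImplicit false
set_option linter.unusedSectionVars false

namespace Cfsg.Agent.R2.P3

open Matrix Cfsg.Agent.H943.SL2Rel Cfsg.Agent.H943.SL2Mod Cfsg.Agent.H943.RepAdd Cfsg.Agent.R2.H28.SL2
open Cfsg.Lie
open Cfsg.Agent.ChevalleyStructure.E6Min.Basic (Zgrp)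
open Cfsg.Agent.ChevalleyStructure.E6Min.Inv
open Cfsg.Agent.H952.F4 (sh cr tf)
open Cfsg.Agent.H952.F4.Jord
open Cfsg.Agent.R2.GEO (Pair crB crB_apply tfB tfB_apply)
open Cfsg.Agent.R2.SL2 (typ tyl coe_tyl typ_step typ_zero listE6_3 tyl_eq_nil mem_typ)

universe u v w

theorem hb_le3 {a b : ℕ} (ha : 3 ≤ a) (hlt : b < 3 ^ a) : hb 3 a b ≤ if tyl 3 b = [1, 1] then 1 else 0 := by
  have h9 : 3 ^ a ≠ 9 := by
    intro h
    have h1 : 3 ^ 3 ≤ 3 ^ a := Nat.pow_le_pow_right (by norm_num) ha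
    omega
  split_ifs with h
  · exact hb_le_one Nat.prime_three hlt h9
  · rw [Nat.le_zero]
    unfold hb
    rw [Finset.card_eq_zero, Finset.filter_eq_empty_iff]
    intro i hi hE
    rw [Finset.mem_range] at hi
    apply h
    rcases exc_odd Nat.prime_three (by norm_num) hi hlt hE with ⟨h1, h2⟩ | ⟨h1, h2⟩
    · omega
    · rw [h2]
      have := tyl_pair' (p := 3) (n := 1) (m := 3 - 2) (by omega) (by omega) (by omega) (by omega) (succ_mod_ne h1 hi)
      rwa [one_mul] at this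

theorem Hs_le3 {a : ℕ} (ha : 3 ≤ a) {s : Multiset ℕ} (hlt : ∀ b ∈ s, b < 3 ^ a) :
    Hs 3 a s ≤ (s.map (tyl 3)).count [1, 1] := by
  induction s using Multiset.induction with
  | empty => simp [Hs]
  | cons b s ih =>
    have h1 := ih fun c hc => hlt c (Multiset.mem_cons_of_mem hc)
    have h2 := hb_le3 ha (hlt b (Multiset.mem_cons_self b s))
    unfold Hs at h1 ⊢
    rw [Multiset.map_cons, Multiset.sum_cons, Multiset.map_cons, Multiset.count_cons]
    have h3 : (if tyl 3 b = [1, 1] then 1 else 0) = if [1, 1] = tyl 3 b then 1 else 0 := by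
      by_cases h : tyl 3 b = [1, 1]
      · rw [if_pos h, if_pos h.symm]
      · rw [if_neg h, if_neg (Ne.symm h)]
    omega

/-- the types which may occur in the socle -/
def big (t : List ℕ) : Bool := t != [] && t != [2] && t != [1, 1]

section Main

variable {k : Type u} [Field k] [DecidableEq k] [IsAlgClosed k] {F : Type w} [Field F] [Fintype F] [DecidableEq F]
  {ι : F →+* k} [CharP k 3] [CharP F 3] {a : ℕ}
variable {ψ : SpecialLinearGroup (Fin 2) F →* ↥(Zgrp k)} {ρ ρ' : Representation k ↥(Zgrp k) (I27 → k)}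
variable {W : List (List ℕ)}

/-- no invariant functionals -/
theorem fra_co (f : Fra 3 a ψ ρ ρ') (l : (I27 → k) →ₗ[k] k) (hl : ∀ g x, l (Rr ρ ψ g x) = l x) : l = 0 := by
  obtain ⟨y, hy⟩ := f.dul.surj l
  have hy0 : y = 0 := by
    refine f.fix' y fun g => ?_
    rw [← sub_eq_zero]
    refine f.dul.right _ fun x => ?_
    have h1 : Rr ρ ψ g (Rr ρ ψ g⁻¹ x) = x := by
      rw [← Module.End.mul_apply, ← map_mul, mul_inv_cancel, map_one, Module.End.one_apply]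
    rw [map_sub, sub_eq_zero, hy]
    conv_lhs => rw [← h1]
    rw [f.dul.inv, hy, ← hl g, h1]
  ext x
  rw [LinearMap.comp_apply, ← hy, hy0, map_zero]
  rfl

/-- the socle -/
theorem soc_big (f : Fra 3 a ψ ρ ρ') (ha : 3 ≤ a) (n1 : Nts (Rr ρ ψ)) (n2 : Nts (Rr ρ' ψ)) {c : ℕ}
    (hc : InSoc ι 3 (Rr ρ ψ) c) : big (tyl 3 c) = true := by
  have hlt := cf_lt ι 3 f.card (Rr ρ ψ) c hc.mem_cf
  unfold big
  simp only [Bool.and_eq_true, bne_iff_ne, ne_eq]
  refine ⟨⟨fun h => ?_, fun h => ?_⟩, fun h => ?_⟩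
  · exact f.soc_ne_zero ι hc (tyl_eq_nil.1 h)
  · obtain ⟨i, hi, rfl⟩ := tyl_single_inv h hlt (by norm_num)
    exact no_two f ha n1 n2 hi hc
  · obtain ⟨i, hi, j, hj, hij, rfl⟩ := tyl_pair_inv h hlt (by norm_num) (by norm_num)
    rw [one_mul, one_mul] at hc
    exact no_eleven f ha n1 n2 hij hi hj hc

/-- **the types of the socle** -/
theorem soc_22 (f : Fra 3 a ψ ρ ρ') (ha : 3 ≤ a) (n1 : Nts (Rr ρ ψ)) (n2 : Nts (Rr ρ' ψ)) (hW : W ∈ listE6_3)
    (hw : (W : Multiset (List ℕ)) = (cf (Sy.{u, u, w} ι 3) (Rr ρ ψ)).map (tyl 3)) {c : ℕ}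
    (hc : InSoc ι 3 (Rr ρ ψ) c) : tyl 3 c = [2, 2] := by
  have h0 : hb 3 a 0 = 0 := by
    have h1 := hb_le3 ha (b := 0) (Nat.pow_pos (by norm_num))
    rw [tyl_eq_nil.2 rfl, if_neg (by simp)] at h1
    omega
  have h2 : (W : Multiset (List ℕ)).count [] = (cf (Sy.{u, u, w} ι 3) (Rr ρ ψ)).count 0 := by
    rw [hw, Multiset.count_map, Multiset.count_eq_card_filter_eq]
    congr 1
    refine Multiset.filter_congr fun b _ => ?_
    rw [eq_comm, tyl_eq_nil, eq_comm]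
  have hpr : [] ∈ W → (W : Multiset (List ℕ)).count [] < (W : Multiset (List ℕ)).count [1, 1] := by
    intro hmem
    have h3 : 0 < (cf (Sy.{u, u, w} ι 3) (Rr ρ ψ)).count 0 := by
      rw [← h2]
      exact Multiset.count_pos.2 hmem
    have h4 := strict_pressure ι 3 f.card h0 f.fix (fra_co f) h3
    have h5 := Hs_le3 ha (cf_lt ι 3 f.card (Rr ρ ψ))
    rw [← hw] at h5
    rw [← h2] at h4
    omega
  have key : ∀ W ∈ listE6_3, ([] ∈ W → (W : Multiset (List ℕ)).count [] < (W : Multiset (List ℕ)).count [1, 1]) →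
      2 ≤ W.length ∧ ((W : Multiset (List ℕ)).countP (fun t => big t = true) ≤ 1 ∨ ∀ t ∈ W, big t = true → t = [2, 2]) := by
    decide +kernel
  obtain ⟨k1, k2⟩ := key W hW hpr
  have hcW := cf_typ_mem ι 3 hw hc.mem_cf
  have hcb := soc_big f ha n1 n2 hc
  rcases k2 with k2 | k2
  · exfalso
    have h6 : (cf (Sy.{u, u, w} ι 3) (Rr ρ ψ)).countP (fun b => big (tyl 3 b) = true) = 1 := by
      have h7 : (W : Multiset (List ℕ)).countP (fun t => big t = true) =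
          (cf (Sy.{u, u, w} ι 3) (Rr ρ ψ)).countP (fun b => big (tyl 3 b) = true) := by
        rw [hw, Multiset.countP_map, ← Multiset.countP_eq_card_filter]
      have h8 : 0 < (cf (Sy.{u, u, w} ι 3) (Rr ρ ψ)).countP (fun b => big (tyl 3 b) = true) :=
        Multiset.countP_pos.2 ⟨c, hc.mem_cf, hcb⟩
      omega
    refine kill_typ ι 3 f.dul (fun b => big (tyl 3 b) = true) h6 (fun c hc => soc_big f ha n1 n2 hc)
      (fun c hc => soc_big f.swap ha n2 n1 hc) ?_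
    have h7 : Multiset.card (W : Multiset (List ℕ)) = W.length := rfl
    rw [← h7, hw, Multiset.card_map] at k1
    exact k1
  · exact k2 _ hcW hcb

/-- **reduction to `22`** -/
theorem S22.of_pat (f : Fra 3 a ψ ρ ρ') (ha : 3 ≤ a) (n1 : Nts (Rr ρ ψ)) (n2 : Nts (Rr ρ' ψ)) (hW : W ∈ listE6_3)
    (hw : (W : Multiset (List ℕ)) = (cf (Sy.{u, u, w} ι 3) (Rr ρ ψ)).map (tyl 3)) : S22 ι a ψ ρ ρ' := by
  have key : ∀ {ρ ρ' : Representation k ↥(Zgrp k) (I27 → k)} (f : Fra 3 a ψ ρ ρ') (n1 : Nts (Rr ρ ψ))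
      (n2 : Nts (Rr ρ' ψ)) (hw : (W : Multiset (List ℕ)) = (cf (Sy.{u, u, w} ι 3) (Rr ρ ψ)).map (tyl 3)),
      ∀ c, InSoc ι 3 (Rr ρ ψ) c → ∃ i j, Pr a i j ∧ c = 2 * 3 ^ i + 2 * 3 ^ j := by
    intro ρ ρ' f n1 n2 hw c hc
    have hlt := cf_lt ι 3 f.card (Rr ρ ψ) c hc.mem_cf
    obtain ⟨i, hi, j, hj, hij, rfl⟩ := tyl_pair_inv (soc_22 f ha n1 n2 hW hw hc) hlt (by norm_num) (by norm_num)
    exact ⟨i, j, ⟨ha, hij, hi, hj⟩, rfl⟩
  exact ⟨f, n1, n2, key f n1 n2 hw, key f.swap n2 n1 (by rw [f.cf_eq ι]; exact hw)⟩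

end Main

end Cfsg.Agent.R2.P3
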