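import Cfsg.Agent.R2.P3.Mat
import Cfsg.Agent.R2.H14.T.TorA
import Cfsg.Agent.R2.H14.T.TBX

/-!
# The torus, `p = 3` (R2/P3, helper17)

* `dist3` : the trilinear form on three submodules;
* `torus_mem3` : diagonal elements; `torH3` : `TorH`.
-/

set_option autoImplicit false
set_option linter.unusedSectionVars false

namespace Cfsg.Agent.R2.P3

open Matrix Cfsg.Agent.H943.SL2Rel Cfsg.Agent.H943.SL2Mod Cfsg.Agent.H943.RepAdd Cfsg.Agent.R2.H28.SL2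
open Cfsg.Lie
open Cfsg.Agent.ChevalleyStructure.E6Min.Basic (Zgrp)
open Cfsg.Agent.ChevalleyStructure.E6Min.Inv
open Cfsg.Agent.H952.F4 (sh cr tf)
open Cfsg.Agent.H952.F4.Jord
open Cfsg.Agent.H163.E6 (V V')
open Cfsg.Agent.R2.GEO (Pair crB crB_apply tfB tfB_apply)
open Cfsg.Agent.R2.H14.T

universe u v w

/-! ### diagonal elements -/

section Torus

variable {k : Type u} [Field k] [DecidableEq k] [IsAlgClosed k] [CharP k 3]
variable {ι' : Type*} {B : Module.Basis ι' k (I27 → k)} {μ : ι' → k}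

/-- **diagonal elements** -/
theorem torus_mem3 (hμ : ∀ x, μ x ≠ 0) (h : ∀ x y z, T3 k (B x) (B y) (B z) ≠ 0 → μ x * μ y * μ z = 1)
    (hN : ∀ x, cubicT (B x) ≠ 0 → μ x = 1) : ∃ g : ↥(Zgrp k), ∀ x, V k g x = dg B μ x := by
  have h2 := two_ne (k := k)
  -- the group element
  have e1 : dg B μ ∘ₗ dg B (fun x => (μ x)⁻¹) = LinearMap.id := by
    refine B.ext fun x => ?_
    rw [LinearMap.comp_apply, dg_apply, map_smul, dg_apply, smul_smul, inv_mul_cancel₀ (hμ x), one_smul]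
    rfl
  have e2 : dg B (fun x => (μ x)⁻¹) ∘ₗ dg B μ = LinearMap.id := by
    refine B.ext fun x => ?_
    rw [LinearMap.comp_apply, dg_apply, map_smul, dg_apply, smul_smul, mul_inv_cancel₀ (hμ x), one_smul]
    rfl
  let g : GL I27 k := ⟨LinearMap.toMatrix' (dg B μ), LinearMap.toMatrix' (dg B fun x => (μ x)⁻¹), by
    rw [← LinearMap.toMatrix'_comp, e1, LinearMap.toMatrix'_id], by
    rw [← LinearMap.toMatrix'_comp, e2, LinearMap.toMatrix'_id]⟩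
  have hg : ∀ x, (g : Matrix I27 I27 k) *ᵥ x = dg B μ x := fun x => LinearMap.toMatrix'_mulVec _ _
  -- invariance of the trilinear form
  have h4 : ∀ x y z, T3 k (dg B μ x) (dg B μ y) (dg B μ z) = T3 k x y z := by
    intro x y z
    have k1 : ∀ x y, (T3 k (dg B μ (B x)) (dg B μ (B y))) ∘ₗ dg B μ = T3 k (B x) (B y) := by
      intro x y
      refine B.ext fun z => ?_
      rw [LinearMap.comp_apply, dg_apply, dg_apply, dg_apply]
      simp only [map_smul, LinearMap.smul_apply, smul_eq_mul]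
      by_cases h0 : T3 k (B x) (B y) (B z) = 0
      · rw [h0]
        ring
      · have := h x y z h0
        linear_combination (T3 k (B x) (B y) (B z)) * this
    have k2 : ∀ x z, (T3 k (dg B μ (B x))).flip (dg B μ z) ∘ₗ dg B μ = (T3 k (B x)).flip z := by
      intro x z
      refine B.ext fun y => ?_
      exact LinearMap.congr_fun (k1 x y) z
    have k3 : ∀ y z, ((T3 k).flip (dg B μ y)).flip (dg B μ z) ∘ₗ dg B μ = ((T3 k).flip y).flip z := by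
      intro y z
      refine B.ext fun x => ?_
      exact LinearMap.congr_fun (k2 x z) y
    exact LinearMap.congr_fun (k3 y z) x
  have h5 : ∀ x y, tf (sh (dg B μ x)) (dg B μ y) = tf (sh x) y := by
    intro x y
    have h6 := h4 x x y
    rw [T3_apply, T3_apply, cr_self, cr_self, tf_smul_left, tf_smul_left] at h6
    exact mul_left_cancel₀ h2 h6
  have h7 : ∀ x, x ∈ Submodule.span k (Set.range B) → cubicT (dg B μ x) = cubicT x := by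
    intro x hx
    induction hx using Submodule.span_induction with
    | mem x hx =>
      obtain ⟨b, rfl⟩ := hx
      rw [dg_apply, N_smul]
      by_cases h0 : cubicT (B b) = 0
      · rw [h0, mul_zero]
      · rw [hN b h0, one_pow, one_mul]
    | zero => rw [map_zero]
    | add x y _ _ h1 h2 => rw [map_add, N_add, N_add, h1, h2, h5, tf_comm (dg B μ x), h5, tf_comm x]
    | smul c x _ h1 => rw [map_smul, N_smul, N_smul, h1]
  have hmem : g ∈ Zgrp k := by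
    rw [Cfsg.Agent.H65.E6Full.Zgrp_eq_of_three ⟨2, h2, fun h => one_ne_zero (α := k) (by linear_combination h)⟩]
    intro v
    show cubicT ((g : Matrix I27 I27 k) *ᵥ v) = cubicT v
    rw [hg]
    exact h7 v (by rw [B.span_eq]; trivial)
  exact ⟨⟨g, hmem⟩, fun x => hg x⟩

end Torus

section Main

variable {k : Type u} [Field k] [DecidableEq k] [IsAlgClosed k] {F : Type w} [Field F] [Fintype F] [DecidableEq F]
  {ι : F →+* k} [CharP k 3] [CharP F 3] {a : ℕ}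
variable {ψ : SpecialLinearGroup (Fin 2) F →* ↥(Zgrp k)} {ρ ρ' : Representation k ↥(Zgrp k) (I27 → k)}

theorem JJ_ne {x y : Fin 3} (h : JJ k x y ≠ 0) : y = 2 - x := by
  fin_cases x <;> fin_cases y <;> first | rfl | exact absurd rfl h

/-- the trilinear form on functions -/
noncomputable def Sg (κ₀ κ₁ κ₂ : (F × F → k) →ₗ[k] Matrix (Fin 3) (Fin 3) k) :
    (F × F → k) →ₗ[k] (F × F → k) →ₗ[k] (F × F → k) →ₗ[k] k :=
  LinearMap.compr₂ ((Sf k).compl₁₂ κ₀ κ₁) (LinearMap.lcomp k k κ₂)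

set_option synthInstance.maxHeartbeats 400000 in
/-- the difference -/
noncomputable def Sd (T : (F × F → k) →ₗ[k] (F × F → k) →ₗ[k] (F × F → k) →ₗ[k] k) (d : k)
    (κ₀ κ₁ κ₂ : (F × F → k) →ₗ[k] Matrix (Fin 3) (Fin 3) k) :
    (F × F → k) →ₗ[k] (F × F → k) →ₗ[k] (F × F → k) →ₗ[k] k :=
  T + (-d) • Sg κ₀ κ₁ κ₂

theorem Sd_apply (T : (F × F → k) →ₗ[k] (F × F → k) →ₗ[k] (F × F → k) →ₗ[k] k) (d : k)
    (κ₀ κ₁ κ₂ : (F × F → k) →ₗ[k] Matrix (Fin 3) (Fin 3) k) (f f' f'' : F × F → k) :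
    Sd T d κ₀ κ₁ κ₂ f f' f'' = T f f' f'' - d * Sf k (κ₀ f) (κ₁ f') (κ₂ f'') := by
  have h : Sd T d κ₀ κ₁ κ₂ f f' f'' = T f f' f'' + (-d) * Sf k (κ₀ f) (κ₁ f') (κ₂ f'') := rfl
  rw [h]
  ring

/-- **the trilinear form on three submodules** -/
theorem dist3 (f0 : Fra 3 a ψ ρ ρ') {p q r : ℕ} (P₀ : Pr a q r) (P₁ : Pr a r p) (P₂ : Pr a p q)
    {Φ₀ Φ₁ Φ₂ : (F × F → k) →ₗ[k] (I27 → k)} (h₀ : Hm ι (Rr ρ ψ) (2 * 3 ^ q + 2 * 3 ^ r) Φ₀)
    (h₁ : Hm ι (Rr ρ ψ) (2 * 3 ^ r + 2 * 3 ^ p) Φ₁) (h₂ : Hm ι (Rr ρ ψ) (2 * 3 ^ p + 2 * 3 ^ q) Φ₂) :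
    ∃ d : k, ∀ A B C, tf (cr (Φ₀ (Th ι q r A)) (Φ₁ (Th ι r p B))) (Φ₂ (Th ι p q C)) = d * Sf k A B C := by
  have hF := f0.card
  obtain ⟨κ₀, hκ₀⟩ := exists_kap (k := k) ι P₀ hF
  obtain ⟨κ₁, hκ₁⟩ := exists_kap (k := k) ι P₁ hF
  obtain ⟨κ₂, hκ₂⟩ := exists_kap (k := k) ι P₂ hF
  obtain ⟨d, hd⟩ : ∃ d, d = tf (cr (Φ₀ (bf ι 3 q r 2 2 2 2)) (Φ₁ (bf ι 3 r p 2 2 0 0))) (Φ₂ (bf ι 3 p q 2 2 2 0)) := ⟨_, rfl⟩
  let T : (F × F → k) →ₗ[k] (F × F → k) →ₗ[k] (F × F → k) →ₗ[k] k :=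
    Sd (Trr Φ₀ Φ₁ Φ₂) d κ₀ κ₁ κ₂
  have hT : ∀ f f' f'', T f f' f'' = tf (cr (Φ₀ f) (Φ₁ f')) (Φ₂ f'') - d * Sf k (κ₀ f) (κ₁ f') (κ₂ f'') :=
    fun f f' f'' => Sd_apply _ _ _ _ _ _ _ _
  have key : ∀ f ∈ Vb ι (2 * 3 ^ q + 2 * 3 ^ r), ∀ f' ∈ Vb ι (2 * 3 ^ r + 2 * 3 ^ p),
      ∀ f'' ∈ Vb ι (2 * 3 ^ p + 2 * 3 ^ q), T f f' f'' = 0 := by
    refine gen_tri ?_ (inv_Vb' ι 3 (P₁.q hF)) (inv_Vb' ι 3 (P₂.q hF)) (top_mem ι 3 (P₀.q hF)) (top_mem ι 3 (P₁.q hF)) ?_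
    · intro g f hf f' hf' f'' hf''
      obtain ⟨A, rfl⟩ := exists_Th ι P₀.ne hf
      obtain ⟨B, rfl⟩ := exists_Th ι P₁.ne hf'
      obtain ⟨C, rfl⟩ := exists_Th ι P₂.ne hf''
      have h3 := Trr_inv (ψ := ψ) f0.pair h₀ h₁ h₂ g _ hf _ hf' _ hf''
      rw [Trr_apply, Trr_apply] at h3
      have h4 : Sf k (κ₀ (fRep k F g (Th ι q r A))) (κ₁ (fRep k F g (Th ι r p B))) (κ₂ (fRep k F g (Th ι p q C))) =
          Sf k (κ₀ (Th ι q r A)) (κ₁ (Th ι r p B)) (κ₂ (Th ι p q C)) := by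
        rw [Th_act, Th_act, Th_act, hκ₀, hκ₁, hκ₂, hκ₀, hκ₁, hκ₂]
        exact Sf_inv (Mg_J ι q g) (Mg_J ι r g) (Mg_J ι p g)
      rw [hT, hT, h3, h4]
    · intro f hf
      have e1 : mon ι (2 * 3 ^ q + 2 * 3 ^ r) (2 * 3 ^ q + 2 * 3 ^ r) = bf ι 3 q r 2 2 2 2 :=
        (bf_eq_mon ι 3 q r le_rfl le_rfl).symm
      have e2 : mon ι (2 * 3 ^ r + 2 * 3 ^ p) (2 * 3 ^ r + 2 * 3 ^ p) = bf ι 3 r p 2 2 2 2 :=
        (bf_eq_mon ι 3 r p le_rfl le_rfl).symm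
      rw [e1, e2, wtop]
      refine Vb_le_bf ι 3 P₂.ne (by norm_num : 2 < 3) (by norm_num : 2 < 3)
        (P := fun f => T (bf ι 3 q r 2 2 2 2) (bf ι 3 r p 2 2 0 0) f = 0) ?_ ?_ ?_ ?_ hf
      · rw [map_zero]
      · intro f f' h1 h2
        rw [map_add, h1, h2, add_zero]
      · intro c f h1
        rw [map_smul, h1, smul_zero]
      · intro x hx y hy
        have f22 : (bf ι 3 q r 2 2 2 2 : F × F → k) = Th ι q r (Matrix.single 2 2 1) := (Th_single ι q r 2 2).symm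
        have f00 : (bf ι 3 r p 2 2 0 0 : F × F → k) = Th ι r p (Matrix.single 0 0 1) := (Th_single ι r p 0 0).symm
        have fxy : (bf ι 3 p q 2 2 x y : F × F → k) = Th ι p q (Matrix.single ⟨x, Nat.lt_succ_of_le hx⟩
          ⟨y, Nat.lt_succ_of_le hy⟩ 1) := (Th_single ι p q ⟨x, Nat.lt_succ_of_le hx⟩ ⟨y, Nat.lt_succ_of_le hy⟩).symm
        have hS : Sf k (κ₀ (bf ι 3 q r 2 2 2 2)) (κ₁ (bf ι 3 r p 2 2 0 0)) (κ₂ (bf ι 3 p q 2 2 x y)) =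
            JJ k 2 0 * JJ k 0 ⟨x, Nat.lt_succ_of_le hx⟩ * JJ k ⟨y, Nat.lt_succ_of_le hy⟩ 2 := by
          rw [f22, f00, fxy, hκ₀, hκ₁, hκ₂]
          exact Sf_single _ _ _ _ _ _
        rw [hT, hS]
        by_cases hxy : x = 2 ∧ y = 0
        · obtain ⟨rfl, rfl⟩ := hxy
          rw [← hd]
          show d - d * (1 * 1 * 1) = 0
          ring
        · have hJ : JJ k 0 ⟨x, Nat.lt_succ_of_le hx⟩ * JJ k ⟨y, Nat.lt_succ_of_le hy⟩ 2 = 0 := by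
            by_contra hne
            apply hxy
            have h3 := JJ_ne (left_ne_zero_of_mul hne)
            have h4 := JJ_ne (right_ne_zero_of_mul hne)
            have k3 : ∀ x : Fin 3, x = 2 - 0 → (x : ℕ) = 2 := by decide
            have k4 : ∀ y : Fin 3, 2 = 2 - y → (y : ℕ) = 0 := by decide
            exact ⟨k3 _ h3, k4 _ h4⟩
          rw [mul_assoc, hJ, mul_zero, mul_zero, sub_zero]
          by_contra h0
          apply hxy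
          have h1 := tri_wt f0.pair (h₀.wt (P₀.mm hF le_rfl le_rfl) (bf_wt ι 3 q r 2 2 2 2))
            (h₁.wt (P₁.mm hF (Nat.zero_le 2) (Nat.zero_le 2)) (bf_wt ι 3 r p 2 2 0 0))
            (h₂.wt (P₂.mm hF hx hy) (bf_wt ι 3 p q 2 2 x y)) h0
          rw [hF] at h1
          have h2 := wt_dvd P₀.hi P₀.hj P₁.hi P₁.hj P₂.hi P₂.hj hx hy (by simpa using h1)
          have ha := P₀.ha
          have n0 := P₀.ne
          have n1 := P₁.ne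
          have n2 := P₂.ne
          have hx' : (x : ℤ) ≤ 2 := by exact_mod_cast hx
          have hy' : (y : ℤ) ≤ 2 := by exact_mod_cast hy
          have hx0 : (0 : ℤ) ≤ x := Int.natCast_nonneg x
          have hy0 : (0 : ℤ) ≤ y := Int.natCast_nonneg y
          have h3 := ds_or (by omega) (fun l _ => by
            unfold vd
            rcases dl_cases p l with h1 | ⟨h1, h1'⟩ <;> rcases dl_cases q l with h2 | ⟨h2, h2'⟩ <;>
              rcases dl_cases r l with h3 | ⟨h3, h3'⟩ <;>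
              rw [h1, h2, h3] <;> constructor <;> omega) h2
          rcases h3 with h3 | h3
          · have ep := h3 p P₂.hi
            have eq := h3 q P₂.hj
            unfold vd at ep eq
            rw [dl_self, dl_ne n2, dl_ne n1.symm] at ep
            rw [dl_self, dl_ne n2.symm, dl_ne n0] at eq
            omega
          · exfalso
            apply h3 r P₁.hi
            unfold vd
            rw [dl_self, dl_ne n0.symm, dl_ne n1]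
            ring
  refine ⟨d, fun A B C => ?_⟩
  have h := key _ (Th_mem ι P₀ hF A) _ (Th_mem ι P₁ hF B) _ (Th_mem ι P₂ hF C)
  rw [hT, hκ₀, hκ₁, hκ₂, sub_eq_zero] at h
  exact h

/-- the cubic form on weight spaces -/
theorem N_wt' (hρ : Pair ρ ρ') {x : I27 → k} {m n : ℕ} (hx : Wt ι (Rr ρ ψ) x m n) (h0 : cubicT x ≠ 0) :
    m % (Fintype.card F - 1) = n % (Fintype.card F - 1) := by
  refine wt_eq ι fun a => pow_inv_eq (iota_ne a) ?_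
  have h1 := pair_N hρ (ψ (h a)) x
  have hx' : ρ (ψ (h a)) x = _ := hx a
  rw [hx', N_smul] at h1
  have h2 : (ι a ^ m * (ι a)⁻¹ ^ n) ^ 3 = 1 := mul_right_cancel₀ h0 (by rw [h1, one_mul])
  have h3 : (ι a ^ m * (ι a)⁻¹ ^ n - 1) ^ 3 = 0 := by
    have := three_zero (k := k)
    linear_combination h2 + (- (ι a ^ m * (ι a)⁻¹ ^ n) ^ 2 + (ι a ^ m * (ι a)⁻¹ ^ n)) * this
  exact sub_eq_zero.1 (pow_eq_zero_iff (n := 3) (by norm_num) |>.1 h3)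

theorem N_center (f0 : Fra 3 a ψ ρ ρ') {i j : ℕ} (P : Pr a i j) {Φ : (F × F → k) →ₗ[k] (I27 → k)}
    (hΦ : Hm ι (Rr ρ ψ) (2 * 3 ^ i + 2 * 3 ^ j) Φ) {x y : Fin 3} (h : cubicT (pm ι i j Φ x y) ≠ 0) : x = 1 ∧ y = 1 := by
  have hF := f0.card
  have hx := Nat.le_of_lt_succ x.2
  have hy := Nat.le_of_lt_succ y.2
  have h1 := N_wt' (ι := ι) f0.pair (hΦ.wt (P.mm hF hx hy) (bf_wt ι 3 i j 2 2 x y)) h
  have hQ := pair_lt_Q P.ha P.ne P.hi P.hj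
  have h6 : ∀ {r s : ℕ}, r ≤ 2 → s ≤ 2 → r * 3 ^ i + s * 3 ^ j < 3 ^ a - 1 := by
    intro r s hr hs
    have h2 : r * 3 ^ i ≤ 2 * 3 ^ i := Nat.mul_le_mul_right _ (by omega)
    have h3 : s * 3 ^ j ≤ 2 * 3 ^ j := Nat.mul_le_mul_right _ (by omega)
    omega
  rw [hF, Nat.mod_eq_of_lt (h6 hx hy), Nat.mod_eq_of_lt (h6 (by omega) (by omega))] at h1
  have h8 := rs_inj P.ne (by omega) (by omega) (by omega) (by omega) h1
  constructor
  · apply Fin.ext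
    show (x : ℕ) = 1
    omega
  · apply Fin.ext
    show (y : ℕ) = 1
    omega

omit [Fintype F] [DecidableEq F] [CharP F 3] [IsAlgClosed k] [CharP k 3] [DecidableEq k] in
theorem perm_eq (τ : Fin 3 → k) {x y z : Fin 3} (h1 : x ≠ y) (h2 : x ≠ z) (h3 : y ≠ z) :
    τ x * τ y * τ z = τ 0 * τ 1 * τ 2 := by
  have key : ∀ x y z : Fin 3, x ≠ y → x ≠ z → y ≠ z →
      (x = 0 ∧ y = 1 ∧ z = 2) ∨ (x = 0 ∧ y = 2 ∧ z = 1) ∨ (x = 1 ∧ y = 0 ∧ z = 2) ∨ (x = 1 ∧ y = 2 ∧ z = 0) ∨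
      (x = 2 ∧ y = 0 ∧ z = 1) ∨ (x = 2 ∧ y = 1 ∧ z = 0) := by decide
  rcases key x y z h1 h2 h3 with ⟨rfl, rfl, rfl⟩ | ⟨rfl, rfl, rfl⟩ | ⟨rfl, rfl, rfl⟩ | ⟨rfl, rfl, rfl⟩ | ⟨rfl, rfl, rfl⟩ |
    ⟨rfl, rfl, rfl⟩ <;> ring

/-- **the torus** -/
theorem torH3 (S : S22 ι a ψ (V k) (V' k)) (ha : 3 ≤ a) {i : Fin 3 → ℕ} (D : Dg3 3 a i)
    {φ : ∀ c : Fin 3, Vb ι (bw 3 i c) →ₗ[k] (I27 → k)} (T : TT ι 3 i (Rr (V k) ψ) φ) : TorH (evc ι 3 i φ) := by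
  intro τ hτ0 hτ
  have f0 := S.fra
  have hF := f0.card
  obtain ⟨B, hB⟩ := T.bas
  have P : ∀ c, Pr a (i (c + 1)) (i (c + 2)) := fun c => ⟨ha, D.ne1 c, D.lt _, D.lt _⟩
  have hext : ∀ c, ∃ Φ : (F × F → k) →ₗ[k] (I27 → k), ∀ f : Vb ι (bw 3 i c), Φ f = φ c f := by
    intro c
    obtain ⟨Φ, hΦ⟩ := (φ c).exists_extend
    exact ⟨Φ, fun f => LinearMap.congr_fun hΦ f⟩
  choose Φ hΦ using hext
  have hHm : ∀ c, Hm ι (Rr (V k) ψ) (2 * 3 ^ i (c + 1) + 2 * 3 ^ i (c + 2)) (Φ c) := by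
    intro c g f hf
    have h1 := T.eqv c g ⟨f, hf⟩ ⟨fRep k F g f, inv_Vb' ι 3 ((P c).q hF) g f hf⟩ rfl
    rw [← hΦ, ← hΦ] at h1
    exact h1
  have hev : ∀ c x y, evc ι 3 i φ c x y = pm ι (i (c + 1)) (i (c + 2)) (Φ c) x y := by
    intro c x y
    have h1 := coe_mv ι hF D c x y
    have h2 : (mon ι (bw 3 i c) (mw 3 i c x y) : F × F → k) =
        bf ι 3 (i (c + 1)) (i (c + 2)) 2 2 (x : ℕ) (y : ℕ) :=
      (bf_eq_mon ι 3 _ _ (Nat.le_of_lt_succ x.2) (Nat.le_of_lt_succ y.2)).symm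
    unfold evc pm
    rw [← hΦ, h1, h2]
  have hmem : ∀ c (x y : Fin 3), bf ι 3 (i (c + 1)) (i (c + 2)) 2 2 (x : ℕ) (y : ℕ) ∈
      Vb ι (2 * 3 ^ i (c + 1) + 2 * 3 ^ i (c + 2)) :=
    fun c x y => (P c).mm hF (Nat.le_of_lt_succ x.2) (Nat.le_of_lt_succ y.2)
  have h2 := two_ne (k := k)
  -- mixed terms
  have hmix : ∀ c d, c ≠ d → ∀ x y x' y' x'' y'',
      T3 k (evc ι 3 i φ c x y) (evc ι 3 i φ d x' y') (evc ι 3 i φ c x'' y'') = 0 := by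
    intro c d hcd x y x' y' x'' y''
    rw [hev, hev, hev, T3_apply]
    refine gen22 f0 (P c) (P d) (P c) (hHm c) (hHm d) (hHm c) (fun x hx y hy h => ?_) _ (hmem c x y) _ (hmem d x' y') _
      (hmem c x'' y'')
    refine absurd (wt_dvd (P c).hi (P c).hj (P d).hi (P d).hj (P c).hi (P c).hj hx hy h)
      (num_mix (P c) (P d) ?_ hx hy)
    rintro (⟨h3, -⟩ | ⟨h3, h4⟩)
    · exact hcd (add_right_cancel (D.inj h3))
    · have key : ∀ c d : Fin 3, c + 1 = d + 2 → c + 2 = d + 1 → False := by decide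
      exact key c d (D.inj h3) (D.inj h4)
  have hμ0 : ∀ x : Fin 3 × Fin 3 × Fin 3, τ x.2.1 * (τ (2 - x.2.2))⁻¹ ≠ 0 :=
    fun x => mul_ne_zero (hτ0 _) (inv_ne_zero (hτ0 _))
  -- the same submodule
  have hsame : ∀ c x y x' y' x'' y'',
      T3 k (evc ι 3 i φ c x y) (evc ι 3 i φ c x' y') (evc ι 3 i φ c x'' y'') ≠ 0 →
      (τ x * (τ (2 - y))⁻¹) * (τ x' * (τ (2 - y'))⁻¹) * (τ x'' * (τ (2 - y''))⁻¹) = 1 := by
    intro c x y x' y' x'' y'' hne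
    rw [hev, hev, hev, T3_apply] at hne
    have hps := pm_star f0 (P c) S.swap.no (hHm c)
    have z1 : ∀ x y y' v, tf (cr (pm ι (i (c + 1)) (i (c + 2)) (Φ c) x y) (pm ι (i (c + 1)) (i (c + 2)) (Φ c) x y')) v = 0 := by
      intro x y y' v
      rw [eq_left hps h2]
      exact Cfsg.Agent.R2.GEO.tf_zero_left v
    have z2 : ∀ x x' y v, tf (cr (pm ι (i (c + 1)) (i (c + 2)) (Φ c) x y) (pm ι (i (c + 1)) (i (c + 2)) (Φ c) x' y)) v = 0 := by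
      intro x x' y v
      rw [eq_right hps h2]
      exact Cfsg.Agent.R2.GEO.tf_zero_left v
    have a1 : x ≠ x' := by rintro rfl; exact hne (z1 _ _ _ _)
    have a2 : y ≠ y' := by rintro rfl; exact hne (z2 _ _ _ _)
    have a3 : x ≠ x'' := by rintro rfl; rw [tri_s23] at hne; exact hne (z1 _ _ _ _)
    have a4 : y ≠ y'' := by rintro rfl; rw [tri_s23] at hne; exact hne (z2 _ _ _ _)
    have a5 : x' ≠ x'' := by rintro rfl; rw [tri_s12, tri_s23] at hne; exact hne (z1 _ _ _ _)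
    have a6 : y' ≠ y'' := by rintro rfl; rw [tri_s12, tri_s23] at hne; exact hne (z2 _ _ _ _)
    have b1 := perm_eq τ a1 a3 a5
    have kk : ∀ y y' : Fin 3, y ≠ y' → 2 - y ≠ 2 - y' := by decide
    have b2 := perm_eq τ (kk _ _ a2) (kk _ _ a4) (kk _ _ a6)
    rw [hτ] at b1 b2
    calc (τ x * (τ (2 - y))⁻¹) * (τ x' * (τ (2 - y'))⁻¹) * (τ x'' * (τ (2 - y''))⁻¹)
        = (τ x * τ x' * τ x'') * (τ (2 - y) * τ (2 - y') * τ (2 - y''))⁻¹ := by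
          rw [mul_inv, mul_inv]
          ring
      _ = 1 := by rw [b1, b2, inv_one, mul_one]
  -- three submodules
  have hdist : ∀ c x y x' y' x'' y'',
      T3 k (evc ι 3 i φ c x y) (evc ι 3 i φ (c + 1) x' y') (evc ι 3 i φ (c + 2) x'' y'') ≠ 0 →
      (τ x * (τ (2 - y))⁻¹) * (τ x' * (τ (2 - y'))⁻¹) * (τ x'' * (τ (2 - y''))⁻¹) = 1 := by
    intro c x y x' y' x'' y'' hne
    rw [hev, hev, hev, T3_apply] at hne
    have H1 := hHm (c + 1)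
    have H2 := hHm (c + 2)
    have P1 := P (c + 1)
    have P2 := P (c + 2)
    rw [← eq_2_11 c, ← eq_0_12 c] at H1 P1 hne
    rw [← eq_0_21 c, ← eq_1_22 c] at H2 P2 hne
    obtain ⟨d, hd⟩ := dist3 f0 (P c) P1 P2 (hHm c) H1 H2
    have h3 := hd (Matrix.single x y 1) (Matrix.single x' y' 1) (Matrix.single x'' y'' 1)
    rw [Th_single, Th_single, Th_single, Sf_single] at h3
    unfold pm at hne
    rw [h3] at hne
    have h4 := right_ne_zero_of_mul hne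
    have h5 := JJ_ne (left_ne_zero_of_mul (left_ne_zero_of_mul h4))
    have h6 := JJ_ne (right_ne_zero_of_mul (left_ne_zero_of_mul h4))
    have h7 := JJ_ne (right_ne_zero_of_mul h4)
    rw [← h5, ← h6, ← h7]
    have := hτ0 x
    have := hτ0 x'
    have := hτ0 x''
    field_simp
  obtain ⟨g, hg⟩ := torus_mem3 (B := B) (μ := fun x => τ x.2.1 * (τ (2 - x.2.2))⁻¹) hμ0 (by
      rintro ⟨c₁, x₁, y₁⟩ ⟨c₂, x₂, y₂⟩ ⟨c₃, x₃, y₃⟩ h
      rw [hB, hB, hB] at h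
      have key : ∀ c₁ c₂ c₃ : Fin 3, (c₂ = c₁ ∧ c₃ = c₁) ∨ (c₂ = c₁ ∧ c₁ ≠ c₃) ∨
        (c₂ = c₁ + 1 ∧ c₃ = c₁ + 2) ∨ (c₂ = c₁ + 2 ∧ c₃ = c₁ + 1) ∨ (c₃ = c₁ ∧ c₁ ≠ c₂) ∨ (c₃ = c₂ ∧ c₂ ≠ c₁) := by decide
      show (τ x₁ * (τ (2 - y₁))⁻¹) * (τ x₂ * (τ (2 - y₂))⁻¹) * (τ x₃ * (τ (2 - y₃))⁻¹) = 1
      rcases key c₁ c₂ c₃ with ⟨rfl, rfl⟩ | ⟨rfl, hc⟩ | ⟨rfl, rfl⟩ | ⟨rfl, rfl⟩ | ⟨rfl, hc⟩ | ⟨rfl, hc⟩
      · exact hsame _ _ _ _ _ _ _ h
      · rw [T3_s23] at h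
        exact absurd (hmix _ _ hc _ _ _ _ _ _) h
      · exact hdist _ _ _ _ _ _ _ h
      · rw [T3_s23] at h
        have h4 := hdist _ _ _ _ _ _ _ h
        linear_combination h4
      · exact absurd (hmix _ _ hc _ _ _ _ _ _) h
      · rw [T3_s12] at h
        exact absurd (hmix _ _ hc _ _ _ _ _ _) h) (by
      rintro ⟨c, x, y⟩ h
      rw [hB, hev] at h
      obtain ⟨rfl, rfl⟩ := N_center f0 (P c) (hHm c) h
      show τ 1 * (τ (2 - 1))⁻¹ = 1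
      rw [show (2 - 1 : Fin 3) = 1 from rfl, mul_inv_cancel₀ (hτ0 1)])
  refine ⟨g, fun c x y => ?_⟩
  rw [hg, ← hB, dg_apply]

end Main

end Cfsg.Agent.R2.P3
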